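import Cfsg.Agent.Comp.Tv
import Cfsg.Agent.Spor.Act2

/-! Recognition of `L₅(2)`, `M₂₄`, `He`: `5 × 5` matrices over `F₂` as 25-bit codes, the valid codes `V` (the centraliser
of `E₀₄`) and the structure `St f` (a parametrisation of an involution centraliser by the valid codes). -/

set_option autoImplicit false

namespace Cfsg.Agent.HeR

open Cfsg.Agent.Comp Matrix

def trm (a b j k : ℕ) : ℕ := Nat.mul (Nat.land (Nat.shiftRight a j) 1082401) (Nat.land (Nat.shiftRight b k) 31)

def mul (a b : ℕ) : ℕ := force a fun a => force b fun b =>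
  Nat.xor (Nat.xor (Nat.xor (Nat.xor (trm a b 0 0) (trm a b 1 5)) (trm a b 2 10)) (trm a b 3 15)) (trm a b 4 20)

def dec (n : ℕ) : Matrix (Fin 5) (Fin 5) (ZMod 2) := fun i j => if n.testBit (5 * i + j) then 1 else 0

def sp (b0 b1 b2 b3 b4 : Bool) : ℕ := b0.toNat + 32 * b1.toNat + 1024 * b2.toNat + 32768 * b3.toNat + 1048576 * b4.toNat

theorem sp_bit : ∀ b0 b1 b2 b3 b4 : Bool, sp b0 b1 b2 b3 b4 < 2 ^ 21 ∧ ∀ i < 21, (sp b0 b1 b2 b3 b4).testBit i =
    if i = 0 then b0 else if i = 5 then b1 else if i = 10 then b2 else if i = 15 then b3 else if i = 20 then b4 else false := by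
  decide +kernel

theorem sp_mul : ∀ b0 b1 b2 b3 b4 : Bool, ∀ r < 32, sp b0 b1 b2 b3 b4 * r < 2 ^ 25 ∧ ∀ i k : Fin 5,
    (sp b0 b1 b2 b3 b4 * r).testBit (5 * i + k) = (![b0, b1, b2, b3, b4] i && r.testBit k) := by
  decide +kernel

theorem land_sp (x : ℕ) : x &&& 1082401 = sp (x.testBit 0) (x.testBit 5) (x.testBit 10) (x.testBit 15) (x.testBit 20) := by
  refine Nat.eq_of_testBit_eq fun i => ?_
  rw [Nat.testBit_and]
  by_cases h : i < 21
  · rw [(sp_bit _ _ _ _ _).2 i h]
    interval_cases i <;> simp <;> exact fun _ => rfl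
  · have h1 : (2 : ℕ) ^ 21 ≤ 2 ^ i := Nat.pow_le_pow_right (by decide) (by omega)
    rw [Nat.testBit_lt_two_pow ((sp_bit _ _ _ _ _).1.trans_le h1),
      Nat.testBit_lt_two_pow (lt_of_lt_of_le (by decide : 1082401 < 2 ^ 21) h1), Bool.and_false]

theorem trm_spec (a b j l : ℕ) : trm a b j l < 2 ^ 25 ∧ ∀ i k : Fin 5,
    (trm a b j l).testBit (5 * i + k) = (a.testBit (5 * i + j) && b.testBit (l + k)) := by
  have h := sp_mul ((a >>> j).testBit 0) ((a >>> j).testBit 5) ((a >>> j).testBit 10) ((a >>> j).testBit 15)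
    ((a >>> j).testBit 20) ((b >>> l) &&& 31) (Nat.and_lt_two_pow _ (by decide : 31 < 2 ^ 5))
  rw [← land_sp] at h
  refine ⟨h.1, fun i k => (h.2 i k).trans ?_⟩
  rw [Nat.testBit_and, Nat.testBit_shiftRight]
  have : Nat.testBit 31 k = true := by revert k; decide
  rw [this, Bool.and_true]
  fin_cases i <;> simp [Nat.testBit_shiftRight, add_comm]

theorem mul_lt (a b : ℕ) : mul a b < 2 ^ 25 := by
  simp only [mul, force_eq]
  exact Nat.xor_lt_two_pow (Nat.xor_lt_two_pow (Nat.xor_lt_two_pow (Nat.xor_lt_two_pow (trm_spec ..).1 (trm_spec ..).1)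
    (trm_spec ..).1) (trm_spec ..).1) (trm_spec ..).1

theorem dec_mul (a b : ℕ) : dec (mul a b) = dec a * dec b := by
  ext i k
  have e : ∀ x y : ℕ, Nat.xor x y = x ^^^ y := fun _ _ => rfl
  simp only [mul, force_eq, dec, e, Nat.testBit_xor, (trm_spec _ _ _ _).2, Matrix.mul_apply, Fin.sum_univ_five]
  simp only [Fin.isValue, Fin.coe_ofNat_eq_mod, Nat.reduceMod, Nat.reduceMul, mul_zero]
  generalize a.testBit (5 * i + 0) = a0; generalize a.testBit (5 * i + 1) = a1; generalize a.testBit (5 * i + 2) = a2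
  generalize a.testBit (5 * i + 3) = a3; generalize a.testBit (5 * i + 4) = a4
  generalize b.testBit (0 + k) = b0; generalize b.testBit (5 + k) = b1; generalize b.testBit (10 + k) = b2
  generalize b.testBit (15 + k) = b3; generalize b.testBit (20 + k) = b4
  revert a0 a1 a2 a3 a4 b0 b1 b2 b3 b4
  decide +kernel

theorem dec_inj {a b : ℕ} (ha : a < 2 ^ 25) (hb : b < 2 ^ 25) (h : dec a = dec b) : a = b := by
  refine Nat.eq_of_testBit_eq fun n => ?_
  by_cases hn : n < 25
  · have := congrFun (congrFun h ⟨n / 5, by omega⟩) ⟨n % 5, by omega⟩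
    simp only [dec, Nat.div_add_mod] at this
    revert this
    cases a.testBit n <;> cases b.testBit n <;> simp
  · have h1 : (2 : ℕ) ^ 25 ≤ 2 ^ n := Nat.pow_le_pow_right (by decide) (by omega)
    rw [Nat.testBit_lt_two_pow (ha.trans_le h1), Nat.testBit_lt_two_pow (hb.trans_le h1)]

/-- the number with bits `F i`, `i < k`. -/
def bits (F : ℕ → Bool) (k : ℕ) : ℕ :=
  Nat.rec (motive := fun _ => ℕ) 0 (fun i ih => Bool.rec ih (Nat.lor ih (Nat.shiftLeft 1 i)) (F i)) k

theorem testBit_bits (F : ℕ → Bool) (k i : ℕ) : (bits F k).testBit i = (decide (i < k) && F i) := by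
  induction k with
  | zero => simp [bits]
  | succ k ih =>
    have : bits F (k + 1) = Bool.rec (bits F k) (bits F k ||| 1 <<< k) (F k) := rfl
    rw [this]
    rcases lt_trichotomy i k with h | rfl | h
    · cases F k <;> simp [ih, h, h.le, Nat.lt_succ_iff, Nat.one_shiftLeft, Nat.testBit_two_pow, h.ne']
    · cases hF : F i <;> simp [ih, hF, Nat.one_shiftLeft]
    · cases F k <;> simp [ih, h.le, Nat.lt_succ_iff, Nat.one_shiftLeft, Nat.testBit_two_pow, h.ne, h.not_gt, h.not_ge]

theorem bits_lt (F : ℕ → Bool) (k : ℕ) : bits F k < 2 ^ k :=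
  Nat.lt_pow_two_of_testBit _ fun i hi => by simp [testBit_bits, hi.not_gt]

/-- reflection in the antidiagonal -/
def ph (n : ℕ) : ℕ := force n fun n => bits (fun i => tb n (Nat.sub 24 (Nat.add (Nat.mul 5 (Nat.mod i 5)) (Nat.div i 5)))) 25

theorem ph_lt (n : ℕ) : ph n < 2 ^ 25 := by simp only [ph, force_eq]; exact bits_lt _ _

theorem dec_ph (n : ℕ) : dec (ph n) = (dec n)ᵀ.submatrix Fin.rev Fin.rev := by
  ext i j
  simp only [ph, force_eq, dec, testBit_bits, tb_eq, submatrix_apply, transpose_apply]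
  fin_cases i <;> fin_cases j <;> rfl

theorem ph_mul (a b : ℕ) : ph (mul a b) = mul (ph b) (ph a) := dec_inj (ph_lt _) (mul_lt _ _) <| by
  rw [dec_mul, dec_ph, dec_ph, dec_ph, dec_mul, transpose_mul]
  exact (submatrix_mul_equiv _ _ _ Fin.revPerm _).symm

theorem ph_ph {a : ℕ} (h : a < 2 ^ 25) : ph (ph a) = a := dec_inj (ph_lt _) h <| by
  rw [dec_ph, dec_ph]; ext i j; simp

def one : ℕ := 17043521
def z : ℕ := 17043537

theorem dec_one : dec one = 1 := by decide +kernel

theorem mul_assoc' (a b c : ℕ) : mul (mul a b) c = mul a (mul b c) := dec_inj (mul_lt ..) (mul_lt ..) <| by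
  simp only [dec_mul, Matrix.mul_assoc]

/-- valid codes -/
def V (n : ℕ) : Prop := n < 2 ^ 25 ∧ (dec n).det = 1 ∧ mul n z = mul z n

theorem V.mul {a b : ℕ} (ha : V a) (hb : V b) : V (mul a b) :=
  ⟨mul_lt .., by rw [dec_mul, det_mul, ha.2.1, hb.2.1, one_mul], by
    rw [mul_assoc', hb.2.2, ← mul_assoc', ha.2.2, mul_assoc']⟩

theorem V_of {a b : ℕ} (h : (Nat.blt a 33554432 && Nat.beq (mul a b) one && Nat.beq (mul a z) (mul z a)) = true) : V a := by
  simp only [Bool.and_eq_true, nbeq, nblt] at h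
  refine ⟨h.1.1, ?_, h.2⟩
  have := congrArg (fun x => (dec x).det) h.1.2
  simp only [dec_mul, det_mul, dec_one, det_one] at this
  revert this
  generalize (dec a).det = x; generalize (dec b).det = y
  revert x y; decide

theorem V_one : V one := V_of (b := one) (by decide +kernel)
theorem V_z : V z := V_of (b := z) (by decide +kernel)

theorem V.ph {a : ℕ} (ha : V a) : V (ph a) := by
  refine ⟨ph_lt _, ?_, ?_⟩
  · rw [dec_ph]
    exact (det_submatrix_equiv_self Fin.revPerm _).trans ((det_transpose _).trans ha.2.1)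
  · have : HeR.ph z = z := by decide +kernel
    conv_lhs => rw [← this, ← ph_mul]
    conv_rhs => rw [← this, ← ph_mul]
    rw [ha.2.2]

theorem V.mul_one {a : ℕ} (ha : V a) : HeR.mul a one = a := dec_inj (mul_lt ..) ha.1 <| by
  rw [dec_mul, dec_one, Matrix.mul_one]

theorem V.one_mul {a : ℕ} (ha : V a) : HeR.mul one a = a := dec_inj (mul_lt ..) ha.1 <| by
  rw [dec_mul, dec_one, Matrix.one_mul]

variable {G : Type*} [Group G]

/-- `f` parametrises the centraliser of `f z` by the valid codes. -/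
structure St (f : ℕ → G) : Prop where
  mul : ∀ {a b : ℕ}, V a → V b → f (mul a b) = f a * f b
  inj : ∀ {a b : ℕ}, V a → V b → f a = f b → a = b
  surj : ∀ g : G, Commute g (f z) → ∃ n, V n ∧ g = f n

/-- the twisted parametrisation -/
def tw (f : ℕ → G) (n : ℕ) : G := (f (ph n))⁻¹

theorem ph_z : ph z = z := by decide +kernel

theorem St.one {f : ℕ → G} (h : St f) : f one = 1 := by
  have := h.mul V_one V_one
  rw [V_one.mul_one] at this
  simpa using this

theorem St.zz {f : ℕ → G} (h : St f) : f z * f z = 1 := by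
  rw [← h.mul V_z V_z, show HeR.mul z z = HeR.one by decide +kernel, h.one]

theorem St.tw_z {f : ℕ → G} (h : St f) : tw f z = f z := by
  rw [tw, ph_z]; exact inv_eq_of_mul_eq_one_right h.zz

theorem St.tw {f : ℕ → G} (h : St f) : St (tw f) where
  mul ha hb := by simp only [HeR.tw]; rw [ph_mul, h.mul hb.ph ha.ph, _root_.mul_inv_rev]
  inj {a b} ha hb e := by
    have := congrArg ph (h.inj ha.ph hb.ph (inv_injective e))
    rwa [ph_ph ha.1, ph_ph hb.1] at this
  surj g hg := by
    rw [h.tw_z] at hg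
    obtain ⟨n, hn, e⟩ := h.surj g⁻¹ hg.inv_left
    exact ⟨ph n, hn.ph, by rw [HeR.tw, ph_ph hn.1, ← e, inv_inv]⟩

abbrev SL5 := SpecialLinearGroup (Fin 5) (ZMod 2)

noncomputable def toSL (n : ℕ) : SL5 := by classical exact if h : V n then ⟨dec n, h.2.1⟩ else 1

theorem coe_toSL {n : ℕ} (h : V n) : (toSL n : Matrix (Fin 5) (Fin 5) (ZMod 2)) = dec n := by
  classical
  exact congrArg Subtype.val (dif_pos h : toSL n = ⟨dec n, h.2.1⟩)

theorem SL_ext {a b : SL5} (h : (a : Matrix (Fin 5) (Fin 5) (ZMod 2)) = b) : a = b := Subtype.ext h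

theorem st_toSL : St toSL where
  mul {a b} ha hb := SL_ext (by
    show _ = (toSL a).1 * (toSL b).1
    rw [coe_toSL ha, coe_toSL hb, coe_toSL (ha.mul hb), dec_mul])
  inj ha hb e := dec_inj ha.1 hb.1 (by rw [← coe_toSL ha, ← coe_toSL hb, e])
  surj g hg := by
    let n := bits (fun i => decide (g.1 (Fin.ofNat 5 (i / 5)) (Fin.ofNat 5 (i % 5)) = 1)) 25
    have hn : dec n = g.1 := by
      ext i j
      have : ∀ x : ZMod 2, (if x = 1 then 1 else 0) = x := by decide
      simp only [dec, n, testBit_bits]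
      fin_cases i <;> fin_cases j <;> simp [this] <;> rfl
    have hV : V n := ⟨bits_lt _ _, hn ▸ g.2, dec_inj (mul_lt ..) (mul_lt ..) (by
      rw [dec_mul, dec_mul, hn, ← coe_toSL V_z]; exact congrArg Subtype.val hg.eq)⟩
    exact ⟨n, hV, Subtype.ext ((coe_toSL hV).trans hn).symm⟩

/-- transport of the structure along an isomorphism of centralisers -/
theorem exists_st (s : SL5) (hs : (s : Matrix (Fin 5) (Fin 5) (ZMod 2)) = transvection 0 1 1) (j : G)
    (hj : orderOf j = 2) (e : Subgroup.centralizer ({j} : Set G) ≃* Subgroup.centralizer ({s} : Set SL5))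
    (hc : ∀ n, V n → (∀ m, V m → mul n m = mul m n) → n = one ∨ n = z) : ∃ f : ℕ → G, St f ∧ f z = j := by
  let P : SL5 := ⟨!![1,0,0,0,0; 0,0,0,0,1; 0,0,1,0,0; 0,0,0,1,0; 0,1,0,0,0], by decide +kernel⟩
  have hP : P * s * P⁻¹ = toSL z := by
    rw [mul_inv_eq_iff_eq_mul]
    refine SL_ext ?_
    show P.1 * s.1 = (toSL z).1 * P.1
    rw [hs, coe_toSL V_z]
    decide +kernel
  have hm : ∀ n, P⁻¹ * toSL n * P ∈ Subgroup.centralizer ({s} : Set SL5) := fun n => by
    rw [Subgroup.mem_centralizer_singleton_iff]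
    have h1 : toSL n * toSL z = toSL z * toSL n := by
      by_cases h : V n
      · rw [← st_toSL.mul h V_z, ← st_toSL.mul V_z h, h.2.2]
      · simp [toSL, h]
    rw [← hP] at h1
    calc _ = P⁻¹ * (toSL n * (P * s * P⁻¹)) * P := by group
      _ = _ := by rw [h1]; group
  let f : ℕ → G := fun n => e.symm ⟨_, hm n⟩
  have hmul : ∀ {a b : ℕ}, V a → V b → f (mul a b) = f a * f b := fun ha hb => by
    simp only [f]
    rw [← Subgroup.coe_mul, ← map_mul]
    refine congrArg (fun x => ((e.symm x : Subgroup.centralizer ({j} : Set G)) : G)) (Subtype.ext ?_)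
    simp only [Subgroup.coe_mul, st_toSL.mul ha hb]; group
  have hinj : ∀ {a b : ℕ}, V a → V b → f a = f b → a = b := fun ha hb h => by
    have := congrArg Subtype.val (e.symm.injective (Subtype.ext h))
    exact st_toSL.inj ha hb (by simpa using this)
  have hsurj : ∀ g : G, Commute g j → ∃ n, V n ∧ g = f n := fun g hg => by
    have hg' : g ∈ Subgroup.centralizer ({j} : Set G) := Subgroup.mem_centralizer_singleton_iff.2 hg.eq
    have h1 := Subgroup.mem_centralizer_singleton_iff.1 (e ⟨g, hg'⟩).2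
    obtain ⟨n, hn, h2⟩ := st_toSL.surj (P * e ⟨g, hg'⟩ * P⁻¹) (by
      rw [← hP]
      calc _ = P * (e ⟨g, hg'⟩ * s) * P⁻¹ := by group
        _ = _ := by rw [h1]; group)
    refine ⟨n, hn, ?_⟩
    have : (⟨_, hm n⟩ : Subgroup.centralizer ({s} : Set SL5)) = e ⟨g, hg'⟩ := Subtype.ext (by
      simp only [← h2]; group)
    simp only [f, this, MulEquiv.symm_apply_apply]
  have hz : f z = j := by
    obtain ⟨n, hn, h1⟩ := hsurj j (Commute.refl j)
    rcases hc n hn (fun m hm' => hinj (hn.mul hm') (hm'.mul hn) (by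
      rw [hmul hn hm', hmul hm' hn, ← h1]
      exact (Subgroup.mem_centralizer_singleton_iff.1 (e.symm ⟨_, hm m⟩).2).symm)) with rfl | rfl
    · have := hmul V_one V_one
      rw [V_one.mul_one, ← h1] at this
      rw [show j = 1 by simpa using this, orderOf_one] at hj
      omega
    · exact h1.symm
  exact ⟨f, ⟨hmul, hinj, fun g hg => hsurj g (hz ▸ hg)⟩, hz⟩

end Cfsg.Agent.HeR
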