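import Cfsg.Agent.HeR.Code
import Cfsg.Agent.BG.Base4

/-! Enumeration of the valid codes (`scan`), words in the six generators, the classes of involutions (`cls`),
the Sylow 2-subgroup `TG f`. -/

set_option autoImplicit false
set_option maxRecDepth 100000

namespace Cfsg.Agent.HeR

open Cfsg.Agent.Comp Cfsg.Agent.Spor Cfsg.Agent.BG

def gl : List ℕ := [17043523, 17043649, 17051713, 17567809, 17041537, 16916545]
def gc (l : ℕ) : ℕ := nthL one gl l
def evc (w : List ℕ) : ℕ := List.rec one (fun l _ ih => mul ih (gc l)) w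
/-- decoding of a word -/
def dw (n : ℕ) : List ℕ := Nat.rec (motive := fun _ => ℕ → List ℕ) (fun _ => [])
  (fun _ ih n => force n fun n => Bool.rec (Nat.pred (Nat.land n 15) :: ih (Nat.shiftRight n 4)) [] (Nat.beq n 0)) 64 n
def lin (B : List ℕ) : ℕ → ℕ := List.rec (motive := fun _ => ℕ → ℕ) (fun _ => one)
  (fun b _ ih v => force v fun v => Bool.rec (ih (Nat.shiftRight v 1)) (mul (ih (Nat.shiftRight v 1)) b) (tb v 0)) B
def cjl (l x : ℕ) : ℕ := mul (gc l) (mul x (gc l))
def cjw (w : List ℕ) : ℕ → ℕ := List.rec (motive := fun _ => ℕ → ℕ) (fun x => x) (fun l _ ih x => force (cjl l x) ih) w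
def cm (a b : ℕ) : Bool := Nat.beq (mul a b) (mul b a)
def imp (a b : Bool) : Bool := Bool.rec true b a

theorem imp_iff {a b : Bool} : imp a b = true ↔ (a = true → b = true) := by cases a <;> cases b <;> simp [imp]
theorem cm_iff {a b : ℕ} : cm a b = true ↔ mul a b = mul b a := nbeq

theorem gc_spec (l : ℕ) : V (gc l) ∧ mul (gc l) (gc l) = one := by
  have : ∀ x ∈ one :: gl, (Nat.blt x 33554432 && Nat.beq (mul x x) one && Nat.beq (mul x z) (mul z x)) = true := by
    decide +kernel
  have h : gc l ∈ one :: gl := by rcases nthL_mem_or one gl l with h | h <;> simp [gc, h]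
  exact ⟨V_of (this _ h), by have := this _ h; simp only [Bool.and_eq_true, nbeq] at this; exact this.1.2⟩

theorem V_gc (l : ℕ) : V (gc l) := (gc_spec l).1

theorem V_evc (w : List ℕ) : V (evc w) := by
  induction w with
  | nil => exact V_one
  | cons l w ih => exact ih.mul (V_gc l)

theorem lin_ind {P : ℕ → Prop} (h1 : P one) (h2 : ∀ a b, P a → P b → P (mul a b)) {B : List ℕ} (h : ∀ b ∈ B, P b) :
    ∀ v, P (lin B v) := by
  induction B with
  | nil => exact fun _ => h1
  | cons b B ih =>
    intro v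
    have ih := ih (fun c hc => h c (List.mem_cons_of_mem _ hc)) (v >>> 1)
    show P (force v fun v => Bool.rec (lin B (v >>> 1)) (mul (lin B (v >>> 1)) b) (tb v 0))
    rw [force_eq]
    cases tb v 0
    exacts [ih, h2 _ _ ih (h b List.mem_cons_self)]

/-- simultaneous induction for two bases -/
theorem lin_ind2 {P : ℕ → ℕ → Prop} (h1 : P one one) (h2 : ∀ a a' b b', P a a' → P b b' → P (mul a b) (mul a' b'))
    {B B' : List ℕ} (h : List.Forall₂ P B B') : ∀ v, P (lin B v) (lin B' v) := by
  induction h with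
  | nil => exact fun _ => h1
  | @cons b b' B B' hb _ ih =>
    intro v
    show P (force v fun v => Bool.rec (lin B (v >>> 1)) (mul (lin B (v >>> 1)) b) (tb v 0))
      (force v fun v => Bool.rec (lin B' (v >>> 1)) (mul (lin B' (v >>> 1)) b') (tb v 0))
    rw [force_eq, force_eq]
    cases tb v 0
    exacts [ih _, h2 _ _ _ _ (ih _) hb]

theorem evc_append (u v : List ℕ) : evc (u ++ v) = mul (evc v) (evc u) := by
  induction u with
  | nil => exact (V_evc v).mul_one.symm
  | cons l u ih => exact (congrArg (mul · (gc l)) ih).trans (mul_assoc' ..)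

def Gen (n : ℕ) : Prop := ∃ w, n = evc w

theorem Gen.mul {a b : ℕ} (ha : Gen a) (hb : Gen b) : Gen (mul a b) := by
  obtain ⟨u, rfl⟩ := ha; obtain ⟨v, rfl⟩ := hb
  exact ⟨v ++ u, (evc_append ..).symm⟩

theorem Gen.V {a : ℕ} (ha : Gen a) : V a := by obtain ⟨u, rfl⟩ := ha; exact V_evc u

theorem gen_of {L W : List ℕ} (h : L = mapL (fun w => evc (dw w)) W) : ∀ a ∈ L, Gen a := by
  intro a ha
  rw [h, mapL_eq, List.mem_map] at ha
  obtain ⟨w, -, rfl⟩ := ha
  exact ⟨_, rfl⟩

def LA : List ℕ := [16847105, 16847169, 16847233, 16847297, 16849153, 16849217, 16849281, 16849345, 16851073, 16851137, 16851329, 16851393, 16853121, 16853185, 16853377, 16853441, 16855169, 16855233, 16855297, 16855361, 16857217, 16857281, 16857345, 16857409, 16910593, 16910657, 16910721, 16910785, 16914689, 16914753, 16914817, 16914881, 16916545, 16916673, 16916801, 16916929, 16918593, 16918721, 16918785, 16918913, 16920641, 16920769, 16920897, 16921025, 16922689, 16922817, 16922881, 16923009, 16976129, 16976193, 16976257,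 16976321, 16978177, 16978241, 16978305, 16978369, 16982081, 16982145, 16982337, 16982401, 16984129, 16984193, 16984321, 16984513, 16986177, 16986241, 16986369, 16986561, 16988225, 16988289, 16988481, 16988545, 17041537, 17041601, 17041793, 17041857, 17043521, 17043649, 17043777, 17043905, 17045569, 17045633, 17045825, 17045889, 17049729, 17049793, 17049985, 17050049, 17051713, 17051841, 17051969, 17052097, 17053761, 17053825, 17054017, 17054081, 17107073, 17107137, 17107329, 17107393, 17109057, 17109185, 17109249, 17109377, 17111105, 17111169, 17111297, 17111489, 17113217, 17113281, 17113473, 17113537, 17117249, 17117313, 17117441, 17117633, 17119297, 17119425, 17119489, 17119617, 17172609, 17172673, 17172737, 17172801, 17174593, 17174721, 17174849, 17174977, 17176641, 17176705, 17176833, 17177025, 17178689, 17178817, 17178945, 17179073, 17180737, 17180801, 17180929, 17181121, 17184897, 17184961, 17185025, 17185089, 17238145, 17238209, 17238273, 17238337, 17240129, 17240257, 17240321, 17240449,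 17242177, 17242241, 17242433, 17242497, 17244225, 17244289, 17244481, 17244545, 17246273, 17246401, 17246465, 17246593, 17248385, 17248449, 17248513, 17248577]
def BQ : List ℕ := [17043523, 17043525, 17043529, 17043537, 17044033, 17059905, 17567809]

theorem gen_LA : ∀ a ∈ LA, Gen a := gen_of (W := [1381, 21349, 9573, 152421, 13669, 217957, 206181, 144741, 101, 1573, 613, 9765, 869, 13861, 12901, 9061, 152165, 2437733, 21093, 340581, 2433893, 2314853, 217701, 336741, 86, 598, 1334, 9526, 854, 12886, 13622, 9046, 6, 98, 38, 610, 9510, 152358, 1318, 21286, 54, 866, 806, 566, 152118, 144678, 13606, 21046, 218706, 2315858, 3298898, 3487314, 22098, 406102, 153170, 341586, 25170, 1618, 156242, 9810, 37037650, 5648982, 3483218, 5387858, 39003730, 2434642, 337490, 5449298, 221778, 13906, 144978, 206418, 5, 37, 83, 595, 0, 2, 1333, 803, 594, 82, 9522, 1330, 53, 805, 851, 565, 3, 50, 562, 35, 9507, 850, 9042, 1315, 13877, 144949, 206389, 221749, 341557, 2438709, 22069, 153141, 5387829, 38942261, 353061,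 2450213, 1589, 25381, 9781, 25141, 5449269, 2434613, 337461, 39003701, 3487285, 2315829, 218677, 3298869, 21347, 152419, 1379, 9571, 867, 9059, 12899, 13859, 2433891, 336739, 22066, 153138, 99, 1586, 611, 1571, 152163, 340579, 21091, 2437731, 217955, 144739, 13667, 206179, 52782371, 55797027, 3499299, 6628197, 6443574, 5464914, 353106, 414262, 2319186, 222034, 2319651, 222499, 402723, 25426, 402258, 25891, 37053266, 37114422, 3498834, 3559990, 2450723, 5465379, 353571, 6497635]) (by decide +kernel)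
theorem gen_BQ : ∀ a ∈ BQ, Gen a := gen_of (W := [1, 1301, 414038, 20015387653170, 353381, 1606, 4]) (by decide +kernel)

theorem gen_lin {B : List ℕ} (h : ∀ b ∈ B, Gen b) (v : ℕ) : Gen (lin B v) :=
  lin_ind ⟨[], rfl⟩ (fun _ _ => Gen.mul) h v

def scanH (P : ℕ → Bool) : Bool := allLt 128 fun q => force (lin BQ q) fun x => Comp.allL LA fun A => force (mul x A) P

theorem card_cent : Nat.card (Subgroup.centralizer ({toSL z} : Set SL5)) = 21504 := by
  let s : SL5 := ⟨Matrix.transvection 0 1 1, by decide +kernel⟩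
  let P : SL5 := ⟨!![1,0,0,0,0; 0,0,0,0,1; 0,0,1,0,0; 0,0,0,1,0; 0,1,0,0,0], by decide +kernel⟩
  have hP : P * s * P⁻¹ = toSL z := by
    rw [mul_inv_eq_iff_eq_mul]
    refine SL_ext ?_
    show P.1 * s.1 = (toSL z).1 * P.1
    rw [coe_toSL V_z]
    decide +kernel
  have : Subgroup.centralizer ({P * s * P⁻¹} : Set SL5) = cj P C1[s] := by
    ext x
    simp only [mem_cj, Subgroup.mem_centralizer_singleton_iff]
    constructor
    · intro e
      calc _ = P⁻¹ * (x * (P * s * P⁻¹)) * P := by group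
        _ = _ := by rw [e]; group
    · intro e
      calc _ = P * (P⁻¹ * x * P * s) * P⁻¹ := by group
        _ = _ := by rw [e]; group
  rw [← hP, this, card_cj]
  exact (Tv.card_equiv s rfl).1

theorem exists_qA {n : ℕ} (hn : V n) : ∃ q < 128, ∃ A ∈ LA, n = mul (lin BQ q) A := by
  classical
  have h1 : (allLt 128 fun q => force (lin BQ q) fun x => band (Nat.beq q (Nat.lor (Nat.land (Nat.shiftRight x 1) 15)
      (Nat.lor (Nat.shiftLeft (bit x 9) 4) (Nat.lor (Nat.shiftLeft (bit x 14) 5) (Nat.shiftLeft (bit x 19) 6)))))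
      (Comp.allL LA fun A => Nat.beq A (Nat.lor (Nat.land (mul x A) 473536) 16777217))) = true := by decide +kernel
  simp only [allLt_iff, force_eq, band_eq, Bool.and_eq_true, Comp.allL_iff, nbeq] at h1
  have hV : ∀ q, ∀ A ∈ LA, V (mul (lin BQ q) A) := fun q A hA => ((gen_lin gen_BQ q).mul (gen_LA A hA)).V
  let C := Subgroup.centralizer ({toSL z} : Set SL5)
  have hm : ∀ {m}, V m → toSL m ∈ C := fun h => by
    rw [Subgroup.mem_centralizer_singleton_iff, ← st_toSL.mul h V_z, ← st_toSL.mul V_z h, h.2.2]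
  let F : (Finset.range 128 ×ˢ LA.toFinset : Finset (ℕ × ℕ)) → C := fun p =>
    ⟨toSL (mul (lin BQ p.1.1) p.1.2), hm (hV _ _ (List.mem_toFinset.1 (Finset.mem_product.1 p.2).2))⟩
  have hinj : Function.Injective F := by
    rintro ⟨⟨q, A⟩, hp⟩ ⟨⟨q', A'⟩, hp'⟩ e
    simp only [Finset.mem_product, Finset.mem_range, List.mem_toFinset] at hp hp'
    have e1 := st_toSL.inj (hV _ _ hp.2) (hV _ _ hp'.2) (congrArg Subtype.val e)
    have e2 : A = A' := by rw [(h1 q hp.1).2 A hp.2, (h1 q' hp'.1).2 A' hp'.2, e1]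
    subst e2
    have e3 := congrArg Subtype.val e
    simp only [F] at e3
    rw [st_toSL.mul (gen_lin gen_BQ q).V (gen_LA A hp.2).V, st_toSL.mul (gen_lin gen_BQ q').V (gen_LA A hp.2).V,
      mul_left_inj] at e3
    have e4 := st_toSL.inj (gen_lin gen_BQ q).V (gen_lin gen_BQ q').V e3
    have e5 : q = q' := by rw [(h1 q hp.1).1, (h1 q' hp'.1).1, e4]
    subst e5; rfl
  have hb := (Nat.bijective_iff_injective_and_card F).2 ⟨hinj, by
    rw [card_cent, Nat.card_eq_fintype_card, Fintype.card_coe, Finset.card_product, Finset.card_range,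
      List.toFinset_card_of_nodup (by decide +kernel)]
    rfl⟩
  obtain ⟨⟨⟨q, A⟩, hp⟩, e⟩ := hb.2 ⟨_, hm hn⟩
  simp only [Finset.mem_product, Finset.mem_range, List.mem_toFinset] at hp
  exact ⟨q, hp.1, A, hp.2, (st_toSL.inj (hV _ _ hp.2) hn (congrArg Subtype.val e)).symm⟩

theorem scan {P : ℕ → Bool} (h : scanH P = true) {n : ℕ} (hn : V n) : P n = true := by
  obtain ⟨q, hq, A, hA, rfl⟩ := exists_qA hn
  simp only [scanH, allLt_iff, force_eq, Comp.allL_iff] at h
  exact h q hq A hA

theorem V.gen {n : ℕ} (hn : V n) : Gen n := by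
  obtain ⟨q, -, A, hA, rfl⟩ := exists_qA hn
  exact (gen_lin gen_BQ q).mul (gen_LA A hA)

theorem cent_H {n : ℕ} (hn : V n) (h : ∀ l, mul n (gc l) = mul (gc l) n) : n = one ∨ n = z := by
  have := scan (P := fun n => imp (band (cm n (gc 0)) (band (cm n (gc 1)) (band (cm n (gc 2)) (cm n (gc 3)))))
    (bor (Nat.beq n one) (Nat.beq n z))) (by decide +kernel) hn
  simpa [imp_iff, cm_iff, h, nbeq] using this

variable {G : Type*} [Group G] {f : ℕ → G}

theorem exists_st' (s : SL5) (hs : (s : Matrix (Fin 5) (Fin 5) (ZMod 2)) = Matrix.transvection 0 1 1) (j : G)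
    (hj : orderOf j = 2) (e : Subgroup.centralizer ({j} : Set G) ≃* Subgroup.centralizer ({s} : Set SL5)) :
    ∃ f : ℕ → G, St f ∧ f z = j :=
  exists_st s hs j hj e fun _ hn h => cent_H hn fun l => h _ (V_gc l)

theorem cjw_cons (l : ℕ) (w : List ℕ) (x : ℕ) : cjw (l :: w) x = cjw w (cjl l x) := force_eq _ _

theorem V.cjl {x : ℕ} (hx : V x) (l : ℕ) : V (cjl l x) := (V_gc l).mul (hx.mul (V_gc l))

theorem card_V (h : St f) : Nat.card {n // V n} = #(C1[f z]) :=
  Nat.card_eq_of_bijective (fun n => ⟨f n.1, Subgroup.mem_centralizer_singleton_iff.2 (by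
      rw [← h.mul n.2 V_z, ← h.mul V_z n.2, n.2.2.2])⟩)
    ⟨fun a b e => Subtype.ext (h.inj a.2 b.2 (congrArg Subtype.val e)), fun x => by
      obtain ⟨n, hn, e⟩ := h.surj x (Subgroup.mem_centralizer_singleton_iff.1 x.2)
      exact ⟨⟨n, hn⟩, Subtype.ext e.symm⟩⟩

theorem V_cjw (w : List ℕ) : ∀ {x}, V x → V (cjw w x) := by
  induction w with
  | nil => exact id
  | cons l w ih => intro x hx; exact cjw_cons l w x ▸ ih (hx.cjl l)

namespace St
variable (h : St f)
include h

theorem cm {a b : ℕ} (ha : V a) (hb : V b) : cm a b = true ↔ Commute (f a) (f b) := by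
  rw [cm_iff, Commute, SemiconjBy, ← h.mul ha hb, ← h.mul hb ha]
  exact ⟨congrArg f, h.inj (ha.mul hb) (hb.mul ha)⟩

theorem comm_z {a : ℕ} (ha : V a) : Commute (f a) (f z) := (h.cm ha V_z).1 (cm_iff.2 ha.2.2)

theorem eq_one {a : ℕ} (ha : V a) : f a = 1 ↔ a = HeR.one := ⟨fun e => h.inj ha V_one (e.trans h.one.symm), fun e => e ▸ h.one⟩

theorem gg (l : ℕ) : f (gc l) * f (gc l) = 1 := by rw [← h.mul (V_gc l) (V_gc l), (gc_spec l).2, h.one]

theorem evc (w : List ℕ) : f (evc w) = ev (fun l => f (gc l)) w := by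
  induction w with
  | nil => exact h.one
  | cons l w ih => rw [ev_cons, ← ih, ← h.mul (V_evc w) (V_gc l)]; rfl

theorem cjl (l : ℕ) {x : ℕ} (hx : V x) : f (cjl l x) = f (gc l) * f x * (f (gc l))⁻¹ := by
  rw [HeR.cjl, h.mul (V_gc l) (hx.mul (V_gc l)), h.mul hx (V_gc l), inv_eq_of_mul_eq_one_right (h.gg l), mul_assoc]

theorem cjw (w : List ℕ) : ∀ {x}, V x → f (cjw w x) = f (HeR.evc w) * f x * (f (HeR.evc w))⁻¹ := by
  induction w with
  | nil => intro x _; simp [show HeR.evc [] = HeR.one from rfl, h.one]; rfl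
  | cons l w ih =>
    intro x hx
    show _ = f (HeR.mul (HeR.evc w) (gc l)) * _ * (f (HeR.mul (HeR.evc w) (gc l)))⁻¹
    rw [cjw_cons, ih (hx.cjl l), h.mul (V_evc w) (V_gc l), h.cjl l hx]; group

/-- invariant predicates -/
theorem invar {P : ℕ → Prop} (hP : ∀ x, V x → P x → ∀ l, P (HeR.cjl l x)) {g : G} (hg : Commute g (f z)) {x y : ℕ}
    (hx : V x) (hy : V y) (e : g * f x * g⁻¹ = f y) (hp : P x) : P y := by
  obtain ⟨n, hn, rfl⟩ := h.surj g hg
  obtain ⟨w, rfl⟩ := hn.gen
  rw [← h.cjw w hx] at e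
  rw [← h.inj (V_cjw w hx) hy e]
  clear e
  induction w generalizing x with
  | nil => exact hp
  | cons l w ih => exact cjw_cons l w x ▸ ih (hx.cjl l) (hP x hx hp l) (V_evc w) (h.comm_z (V_evc w))

end St

/-- representatives `A1, A2, t, c, b, d1, d2` of the classes of noncentral involutions -/
def reps : List ℕ := [17043529, 17044033, 17044041, 17043777, 17043793, 17043657, 17052225]
def rp (i : ℕ) : ℕ := nthL one reps i
def LI : List ℕ := [0, 32, 48, 800, 432, 688, 6944, 11040, 10672, 4784, 170784, 76576, 76208, 1219360, 1, 9, 41, 649, 297, 809, 4745, 12937, 12585, 6953, 201353, 111241, 110889, 1774217, 2, 10, 42, 50, 650, 778, 298, 810, 434, 690, 4746, 12938, 6922, 11018, 12586, 6954, 11050, 10674, 4786, 201354, 111242, 176778, 170762, 76554, 110890, 176426, 170794, 76586, 76210, 1774218, 2822794, 2732682, 1225354, 1219338, 2732330, 1225002, 1219370, 1649450, 43717258, 19600010, 19509898, 26391178, 3, 11, 35, 43, 51, 523, 651, 779, 675, 803, 299, 811, 435, 691, 10763, 12811, 4747, 12939,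 6923, 11019, 4771, 12963, 6947, 11043, 12587, 6955, 11051, 10675, 4787, 76299, 207371, 111115, 176651, 201355, 111243, 176779, 170763, 76555, 201379, 111267, 176803, 170787, 76579, 110891, 176427, 170795, 76587, 76211, 3222027, 1780235, 2828811, 2732555, 1225227, 1774219, 2822795, 2732683, 1225355, 1219339, 1774243, 2822819, 2732707, 1225379, 1219363, 2732331, 1225003, 1219371, 1649451, 28387851, 45165067, 43723275, 19606027, 19509771, 43717259, 19600011, 19509899, 26391179, 43717283, 19600035, 19509923, 26391203, 699476491, 313600523, 312158731, 422259211, 4, 12, 36, 44, 52, 524, 652, 780, 676, 804, 300, 812, 436, 692, 10764, 12812, 4748, 12940, 6924, 11020, 4772, 12964, 6948, 11044, 12588, 6956, 11052, 10676, 4788, 76300, 207372, 111116, 176652, 201356, 111244, 176780, 170764, 76556, 201380, 111268, 176804, 170788, 76580, 110892, 176428, 170796, 76588, 76212, 3222028, 1780236, 2828812, 2732556, 1225228, 1774220, 2822796, 2732684, 1225356, 1219340, 1774244, 2822820, 2732708, 1225380, 1219364,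 2732332, 1225004, 1219372, 1649452, 28387852, 45165068, 43723276, 19606028, 19509772, 43717260, 19600012, 19509900, 26391180, 43717284, 19600036, 19509924, 26391204, 699476492, 313600524, 312158732, 422259212, 5, 13, 29, 37, 45, 53, 397, 525, 653, 781, 541, 669, 421, 677, 805, 301, 813, 565, 693, 8589, 10637, 6669, 10765, 12813, 4749, 12941, 8973, 11021, 6685, 10781, 12829, 4765, 12957, 8613, 10661, 4773, 12965, 8997, 11045, 12589, 6957, 11053, 6709, 10805, 12853, 4789, 106893, 172429, 76173, 207245, 170509, 76301, 207373, 176653, 201357, 111245, 176781, 172813, 205581, 76557, 170525, 76317, 207389, 176669, 201373, 111261, 172453, 76197, 207269, 201381, 111269, 176805, 172837, 76581, 110893, 143661, 176429, 72493, 170797, 170549, 76341, 207413, 176693, 2728333, 1221005, 3318157, 3221901, 1780109, 1219085, 3316237, 3222029, 1780237, 2828813, 1225229, 1774221, 2298509, 2822797, 1159821, 2732685, 1221389, 3318541, 2827021, 1219101, 3316253, 3222045, 1780253, 2828829, 1225245, 2298525, 1221029,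 3318181, 3221925, 1780133, 1774245, 2298533, 2822821, 1159845, 2732709, 1221413, 3318565, 2208045, 2732333, 1716525, 2765101, 3289389, 1225005, 1219125, 3316277, 3222069, 2828853, 19505549, 53059981, 51552653, 28483981, 36776333, 51550733, 28482061, 28387853, 36776461, 45165069, 18557453, 43723277, 35328653, 27464333, 44241549, 52630157, 51553037, 45261581, 28482077, 28387869, 45165085, 27464349, 28484005, 43717285, 44241573, 19600037, 51553061, 44151085, 43659565, 19542317, 51550773, 28482101, 45165109, 455713165, 454205837, 439429517, 698552973, 722641677, 6, 14, 22, 38, 46, 54, 270, 526, 654, 782, 150, 534, 790, 678, 806, 174, 814, 438, 694, 2318, 8462, 12558, 10766, 12814, 2702, 12942, 6926, 11022, 4246, 8342, 10390, 12438, 12822, 6934, 11030, 2726, 12966, 6950, 11046, 4270, 10414, 12462, 6958, 11054, 10678, 4790, 198926, 205070, 110862, 176398, 207374, 111118, 176654, 199310, 111246, 176782, 170766, 76558, 135318, 200854, 204950, 75926, 206998, 110742, 176278, 111126, 176662, 170774,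 76566, 199334, 111270, 176806, 170790, 76582, 200878, 207022, 110766, 176302, 170798, 76590, 43446, 76214, 103094, 1771790, 2820366, 1777934, 2826510, 2732302, 1224974, 1780238, 2828814, 2732558, 1225230, 1772174, 2820750, 2732686, 1225358, 695054, 1219342, 1649422, 3281046, 1773718, 2822294, 1777814, 2826390, 3221654, 1779862, 2828438, 2732182, 1224854, 2732566, 1225238, 695062, 1772198, 2820774, 2732710, 1225382, 695078, 1219366, 1649446, 1773742, 2822318, 1779886, 2828462, 2732206, 1224878, 1219374, 1649454, 1092022, 600502, 19597582, 43720974, 19603726, 43723278, 19606030, 11121166, 19509774, 26391054, 43715214, 19597966, 19509902, 26391182, 28446870, 45224086, 19599510, 43720854, 19603606, 28387478, 45164694, 43722902, 19605654, 19509398, 17472278, 43715238, 19597990, 17472294, 9607974, 43716782, 19599534, 19605678, 19509422, 26390702, 9607982, 422251150, 313659542, 312156310, 313600150, 312158358]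

theorem V_rp (i : ℕ) : V (rp i) := by
  have : ∀ x ∈ one :: reps, (Nat.blt x 33554432 && Nat.beq (mul x x) one && Nat.beq (mul x z) (mul z x)) = true := by
    decide +kernel
  exact V_of (this _ (by rcases nthL_mem_or one reps i with h | h <;> simp [rp, h]))

theorem cls {n : ℕ} (hn : V n) (h2 : mul n n = one) : n = one ∨ n = z ∨ ∃ i < 7, ∃ w, n = cjw w (rp i) := by
  have h1 : forceL (mapL (fun p => cjw (dw (Nat.shiftRight p 3)) (rp (Nat.land p 7))) LI) (fun L =>
      scanH fun n => imp (Nat.beq (mul n n) one) (bor (Nat.beq n one) (bor (Nat.beq n z) (memL n L)))) = true := by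
    decide +kernel
  have h3 : Comp.allL LI (fun p => Nat.blt (Nat.land p 7) 7) = true := by decide +kernel
  rw [forceL_eq] at h1
  have := scan h1 hn
  simp only [imp_iff, nbeq, bor_eq, Bool.or_eq_true, memL_iff, mapL_eq, List.mem_map] at this
  rcases this h2 with h | h | ⟨p, hp, h⟩
  exacts [.inl h, .inr (.inl h), .inr (.inr ⟨_, nblt.1 (Comp.allL_iff.1 h3 p hp), _, h.symm⟩)]

def BT : List ℕ := [17043523, 17043525, 17043529, 17043537, 17043649, 17043777, 17044033, 17051713, 17059905, 17567809]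
def tc (v : ℕ) : ℕ := lin BT v
def gT (n : ℕ) : ℕ := force n fun n => Nat.lor (Nat.lor (Nat.land (Nat.shiftRight n 1) 15) (Nat.land (Nat.shiftRight n 3) 112))
  (Nat.lor (Nat.land (Nat.shiftRight n 6) 384) (Nat.land (Nat.shiftRight n 10) 512))

theorem gen_BT : BT = mapL (fun w => evc (dw w)) [1, 4626, 305271346, 20015387653170, 2, 8995, 591602499, 3, 13364, 4] := by decide +kernel
theorem V_tc (v : ℕ) : V (tc v) := (gen_lin (gen_of gen_BT) v).V

def TG (f : ℕ → G) : Subgroup G := genL (fun l => f (gc l)) [0, 1, 2, 3]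

theorem ev_mem_genL (g : ℕ → G) {xs w : List ℕ} (h : ∀ x ∈ w, x ∈ xs) : ev g w ∈ genL g xs := by
  induction w with
  | nil => exact one_mem _
  | cons l w ih => exact mul_mem (ih fun x hx => h x (List.mem_cons_of_mem _ hx)) (mem_genL g (h l List.mem_cons_self))

theorem tc_spec {v : ℕ} (hv : v < 1024) : gT (tc v) = v ∧ ∀ l ∈ [0, 1, 2, 3], ∃ v' < 1024, mul (tc v) (gc l) = tc v' := by
  have : allLt 1024 (fun v => force (tc v) fun x => band (Nat.beq (gT x) v) (Comp.allL [0, 1, 2, 3] fun l =>
      force (mul x (gc l)) fun y => band (Nat.blt (gT y) 1024) (Nat.beq y (tc (gT y))))) = true := by decide +kernel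
  simp only [allLt_iff, force_eq, band_eq, Bool.and_eq_true, Comp.allL_iff, nbeq, nblt] at this
  exact ⟨(this v hv).1, fun l hl => ⟨_, (this v hv).2 l hl⟩⟩

namespace St
variable (h : St f)
include h

theorem tc_mem (v : ℕ) : f (tc v) ∈ TG f := by
  refine (lin_ind (P := fun n => V n ∧ f n ∈ TG f) ⟨V_one, h.one ▸ one_mem _⟩
    (fun a b ha hb => ⟨ha.1.mul hb.1, h.mul ha.1 hb.1 ▸ mul_mem ha.2 hb.2⟩) (fun b hb => ?_) v).2
  have : ∀ w ∈ [1, 4626, 305271346, 20015387653170, 2, 8995, 591602499, 3, 13364, 4], ∀ x ∈ dw w, x ∈ [0, 1, 2, 3] := by decide +kernel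
  rw [gen_BT, mapL_eq, List.mem_map] at hb
  obtain ⟨w, hw, rfl⟩ := hb
  exact ⟨V_evc _, h.evc _ ▸ ev_mem_genL _ (this w hw)⟩

theorem mem_T {x : G} (hx : x ∈ TG f) : ∃ v < 1024, x = f (tc v) := by
  refine Subgroup.closure_induction_right ⟨0, by decide, h.one.symm⟩ ?_ ?_ hx
  · rintro _ _ _ ⟨l, hl, rfl⟩ ⟨v, hv, rfl⟩
    obtain ⟨v', h1, h2⟩ := (tc_spec hv).2 l hl
    exact ⟨v', h1, by rw [← h2, h.mul (V_tc v) (V_gc l)]⟩
  · rintro _ _ _ ⟨l, hl, rfl⟩ ⟨v, hv, rfl⟩
    obtain ⟨v', h1, h2⟩ := (tc_spec hv).2 l hl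
    exact ⟨v', h1, by rw [← h2, h.mul (V_tc v) (V_gc l), inv_eq_of_mul_eq_one_right (h.gg l)]⟩

theorem card_T : #(TG f) = 1024 := by
  let F : Fin 1024 → TG f := fun v => ⟨_, h.tc_mem v⟩
  rw [← Nat.card_eq_of_bijective F ⟨fun v w e => Fin.ext ?_, fun x => ?_⟩, Nat.card_fin]
  · rw [← (tc_spec v.2).1, h.inj (V_tc v) (V_tc w) (congrArg Subtype.val e), (tc_spec w.2).1]
  · obtain ⟨v, hv, e⟩ := h.mem_T x.2
    exact ⟨⟨v, hv⟩, Subtype.ext e.symm⟩

theorem card_C : #(C1[f z]) = 21504 := by rw [← card_V h, card_V st_toSL, card_cent]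

theorem T_le_C : TG f ≤ C1[f z] := fun x hx => by
  obtain ⟨v, -, rfl⟩ := h.mem_T hx
  exact Subgroup.mem_centralizer_singleton_iff.2 (h.comm_z (V_tc v)).eq

theorem z_mem_T : f z ∈ TG f := show f (tc 8) ∈ TG f from h.tc_mem 8

theorem z_ne : f z ≠ 1 := fun e => absurd ((h.eq_one V_z).1 e) (by decide)

theorem order_z : orderOf (f z) = 2 := orderOf_eq_prime (by rw [sq, h.zz]) h.z_ne

/-- `z` is the only central involution of `T` -/
theorem eq_z {x : G} (h1 : x ≠ 1) (hc : ∀ y ∈ TG f, Commute x y) : x = f z := by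
  obtain ⟨n, hn, rfl⟩ := h.surj x (hc _ h.z_mem_T)
  have := scan (P := fun n => imp (band (HeR.cm n (gc 0)) (band (HeR.cm n (gc 1)) (band (HeR.cm n (gc 2)) (HeR.cm n (gc 3)))))
    (bor (Nat.beq n HeR.one) (Nat.beq n z))) (by decide +kernel) hn
  simp only [imp_iff, band_eq, Bool.and_eq_true, h.cm hn (V_gc _), bor_eq, Bool.or_eq_true, nbeq] at this
  rcases this ⟨hc _ (mem_genL _ (by simp)), hc _ (mem_genL _ (by simp)), hc _ (mem_genL _ (by simp)),
    hc _ (mem_genL _ (by simp))⟩ with rfl | rfl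
  exacts [absurd h.one h1, rfl]

theorem norm_T {g : G} (hg : g ∈ N[TG f]) : Commute g (f z) := by
  have : g * f z * g⁻¹ = f z := h.eq_z (by simpa using h.z_ne) fun y hy => by
    have := (Subgroup.mem_centralizer_singleton_iff.1 (h.T_le_C (conj_mem_of_norm (inv_mem hg) hy))).symm
    calc g * f z * g⁻¹ * y = g * (f z * (g⁻¹ * y * g⁻¹⁻¹)) * g⁻¹ := by group
      _ = _ := by rw [this]; group
  exact mul_inv_eq_iff_eq_mul.1 this

theorem syl [Finite G] : SylowIn 2 (TG f) ⊤ := by
  have hp : IsPGroup 2 (TG f) := IsPGroup.of_card (n := 10) h.card_T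
  refine Sylow_subnorm (pHall_subl (le_inf le_top Subgroup.le_normalizer)
    (fun g hg => Subgroup.mem_centralizer_singleton_iff.2 (h.norm_T hg.2).eq) (sylow_mk h.T_le_C hp ?_))
  have := card_mul_relIndex h.T_le_C
  rw [h.card_T, h.card_C] at this
  omega

end St

end Cfsg.Agent.HeR
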